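import Mathlib

/-!
# The core computation for `S4407`

A module over `ZMod 2` for a group generated by elements `a₁ a₂ r s` with the relations of
`3² ⋊ D₈`, irreducible, on which `a₁` has a nonzero fixed vector: the module has `16` elements and the
fixed points of the two four-subgroups of `⟨r, s⟩` are computed.
-/

set_option autoImplicit false

namespace Cfsg.Agent.Lib.S4407

section Core

variable {S M : Type*} [Group S] [AddCommGroup M] [Module (ZMod 2) M]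

theorem add_self' (x : M) : x + x = 0 := by
  have h : (2 : ZMod 2) = 0 := by decide
  have h2 := congrArg (fun c : ZMod 2 => c • x) h
  simp only [zero_smul] at h2
  rwa [two_smul] at h2

theorem eq_of_add_eq_zero' {x y : M} (h : x + y = 0) : x = y := by
  have h2 := add_self' y
  have h3 : x + y = y + y := by rw [h, h2]
  exact add_right_cancel h3

/-- The coordinate space. -/
abbrev T4 : Type := ZMod 2 × ZMod 2 × ZMod 2 × ZMod 2

/-- Relations. -/
structure Rel (r s a₁ a₂ : S) : Prop where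
  r4 : r * r * (r * r) = 1
  s2 : s * s = 1
  sr : s * r = r * (r * r) * s
  zs : (r * r) * s = s * (r * r)
  a13 : a₁ * a₁ * a₁ = 1
  a23 : a₂ * a₂ * a₂ = 1
  comm : a₁ * a₂ = a₂ * a₁
  ne : a₁ ≠ 1
  h1 : a₂ * r = r * a₁
  h2 : a₁ * r = r * (a₂ * a₂)
  h3 : s * a₁ = a₁ * s
  h4 : s * a₂ = a₂ * a₂ * s

namespace Rel

variable {r s a₁ a₂ : S} (hR : Rel r s a₁ a₂)

include hR

theorem za₂ : (r * r) * a₂ = a₂ * a₂ * (r * r) := by
  have h : a₂ * (r * r) = (r * r) * (a₂ * a₂) := by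
    calc a₂ * (r * r) = (a₂ * r) * r := by group
      _ = r * (a₁ * r) := by rw [hR.h1]; group
      _ = r * (r * (a₂ * a₂)) := by rw [hR.h2]
      _ = (r * r) * (a₂ * a₂) := by group
  calc (r * r) * a₂ = (r * r) * (a₂ * a₂ * a₂ * a₂) := by rw [hR.a23, one_mul]
    _ = ((r * r) * (a₂ * a₂)) * (a₂ * a₂) := by group
    _ = (a₂ * (r * r)) * (a₂ * a₂) := by rw [h]
    _ = a₂ * ((r * r) * (a₂ * a₂)) := by group
    _ = a₂ * (a₂ * (r * r)) := by rw [h]
    _ = a₂ * a₂ * (r * r) := by group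

theorem a₁z : a₁ * (r * r) = (r * r) * (a₁ * a₁) := by
  calc a₁ * (r * r) = (a₁ * r) * r := by group
    _ = r * (a₂ * (a₂ * r)) := by rw [hR.h2]; group
    _ = r * (a₂ * (r * a₁)) := by rw [hR.h1]
    _ = r * ((a₂ * r) * a₁) := by group
    _ = r * ((r * a₁) * a₁) := by rw [hR.h1]
    _ = (r * r) * (a₁ * a₁) := by group

end Rel

variable (ρ : Representation (ZMod 2) S M)

theorem mulap (g h : S) (m : M) : ρ (g * h) m = ρ g (ρ h m) := by
  rw [map_mul]; rfl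

theorem oneap (m : M) : ρ 1 m = m := by
  rw [map_one]; rfl

/-- Replacing a nonzero vector by a fixed one of a linear involution. -/
theorem fix_step (g : S) (hg : g * g = 1) {m : M} (hm : m ≠ 0) :
    ∃ w : M, w ≠ 0 ∧ ρ g w = w ∧ (w = m ∨ w = m + ρ g m) := by
  by_cases h : ρ g m = m
  · exact ⟨m, hm, h, Or.inl rfl⟩
  · refine ⟨m + ρ g m, ?_, ?_, Or.inr rfl⟩
    · intro h0
      exact h (eq_of_add_eq_zero' h0).symm
    · rw [map_add, ← mulap, hg, oneap, add_comm]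

theorem inj_ρ (g : S) {x : M} (hx : ρ g x = 0) : x = 0 := by
  have := congrArg (ρ g⁻¹) hx
  rwa [← mulap, inv_mul_cancel, oneap, map_zero] at this

/-- No fixed points of `A`. -/
theorem noFix {r s a₁ a₂ : S} (hR : Rel r s a₁ a₂) (hfaith : Function.Injective ρ)
    (hirr : ∀ N : Submodule (ZMod 2) M, (∀ m ∈ N, ρ a₁ m ∈ N) → (∀ m ∈ N, ρ a₂ m ∈ N) →
      (∀ m ∈ N, ρ r m ∈ N) → (∀ m ∈ N, ρ s m ∈ N) → N = ⊥ ∨ N = ⊤) :
    ∀ m : M, ρ a₁ m = m → ρ a₂ m = m → m = 0 := by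
  classical
  let N₀ : Submodule (ZMod 2) M :=
    { carrier := {m | ρ a₁ m = m ∧ ρ a₂ m = m}
      add_mem' := by
        rintro x y ⟨h1, h2⟩ ⟨h3, h4⟩
        exact ⟨by rw [map_add, h1, h3], by rw [map_add, h2, h4]⟩
      zero_mem' := ⟨map_zero _, map_zero _⟩
      smul_mem' := by
        rintro c x ⟨h1, h2⟩
        exact ⟨by rw [map_smul, h1], by rw [map_smul, h2]⟩ }
  have hN₀ : N₀ = ⊥ ∨ N₀ = ⊤ := by
    apply hirr
    · rintro m ⟨h1, h2⟩
      refine ⟨by rw [h1, h1], ?_⟩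
      rw [h1, h2]
    · rintro m ⟨h1, h2⟩
      refine ⟨?_, by rw [h2, h2]⟩
      rw [h2, h1]
    · rintro m ⟨h1, h2⟩
      constructor
      · rw [← mulap, hR.h2, mulap, mulap, h2, h2]
      · rw [← mulap, hR.h1, mulap, h1]
    · rintro m ⟨h1, h2⟩
      constructor
      · rw [← mulap, ← hR.h3, mulap, h1]
      · have h3 : ρ a₂ (ρ a₂ (ρ s m)) = ρ s m := by
          rw [← mulap, ← mulap, ← hR.h4, mulap, h2]
        have h4 := congrArg (ρ a₂) h3
        have h5 : ρ a₂ (ρ a₂ (ρ a₂ (ρ s m))) = ρ s m := by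
          rw [← mulap, ← mulap, hR.a23, oneap]
        rw [h5] at h4
        exact h4.symm
  intro m h1 h2
  rcases hN₀ with h | h
  · have : m ∈ N₀ := ⟨h1, h2⟩
    rw [h] at this
    simpa using this
  · exfalso
    apply hR.ne
    apply hfaith
    rw [map_one]
    apply LinearMap.ext
    intro x
    have : x ∈ N₀ := by rw [h]; trivial
    exact this.1

variable [Finite M]

/-- The core computation. -/
theorem core {r s a₁ a₂ : S} (hR : Rel r s a₁ a₂) (hfaith : Function.Injective ρ)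
    (hirr : ∀ N : Submodule (ZMod 2) M, (∀ m ∈ N, ρ a₁ m ∈ N) → (∀ m ∈ N, ρ a₂ m ∈ N) →
      (∀ m ∈ N, ρ r m ∈ N) → (∀ m ∈ N, ρ s m ∈ N) → N = ⊥ ∨ N = ⊤)
    (hv₀ : ∃ m : M, m ≠ 0 ∧ ρ a₁ m = m) :
    Nat.card M = 16 ∧ Nat.card {m : M // ρ (r * r) m = m ∧ ρ s m = m} = 4 ∧
      Nat.card {m : M // ρ (r * r) m = m ∧ ρ (r * s) m = m} = 2 := by
  classical
  have hC := noFix ρ hR hfaith hirr
  -- the fixed vector `v`
  obtain ⟨m₀, hm₀, ha₀⟩ := hv₀
  obtain ⟨m₁, hm₁, hs₁, hor₁⟩ := fix_step ρ s hR.s2 hm₀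
  have ha₁ : ρ a₁ m₁ = m₁ := by
    rcases hor₁ with rfl | rfl
    · exact ha₀
    · rw [map_add, ha₀, ← mulap, ← hR.h3, mulap, ha₀]
  have hzz : (r * r) * (r * r) = 1 := hR.r4
  obtain ⟨v, hv, hzv, hor⟩ := fix_step ρ (r * r) hzz hm₁
  have hsv : ρ s v = v := by
    rcases hor with rfl | rfl
    · exact hs₁
    · rw [map_add, hs₁, ← mulap, ← hR.zs, mulap, hs₁]
  have ha₁z : ρ a₁ (ρ (r * r) m₁) = ρ (r * r) m₁ := by
    rw [← mulap, hR.a₁z, mulap ρ (r * r) (a₁ * a₁), mulap ρ a₁ a₁, ha₁, ha₁]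
  have ha₁v : ρ a₁ v = v := by
    rcases hor with rfl | rfl
    · exact ha₁
    · rw [map_add, ha₁, ha₁z]
  -- `a₂` on the fixed space of `a₁`
  have ha₂₂ : ρ a₂ (ρ a₂ v) = v + ρ a₂ v := by
    set u : M := v + ρ a₂ v + ρ a₂ (ρ a₂ v) with hu
    have h1 : ρ a₁ u = u := by
      rw [hu, map_add, map_add, ha₁v]
      have h2 : ρ a₁ (ρ a₂ v) = ρ a₂ v := by rw [← mulap, hR.comm, mulap, ha₁v]
      have h3 : ρ a₁ (ρ a₂ (ρ a₂ v)) = ρ a₂ (ρ a₂ v) := by
        rw [← mulap, hR.comm, mulap, h2]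
      rw [h2, h3]
    have h2 : ρ a₂ u = u := by
      have h3 : ρ a₂ (ρ a₂ (ρ a₂ v)) = v := by
        rw [← mulap, ← mulap, hR.a23, oneap]
      rw [hu, map_add, map_add, h3]
      abel
    have h3 := hC u h1 h2
    have h4 : (v + ρ a₂ v) + ρ a₂ (ρ a₂ v) = 0 := h3
    exact (eq_of_add_eq_zero' h4).symm
  have ha₂v : ρ a₂ v ≠ v := fun h => hv (hC v ha₁v h)
  -- the vectors
  set e₁ : M := v with he₁
  set e₂ : M := ρ a₂ v with he₂
  set e₃ : M := ρ r v with he₃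
  set e₄ : M := ρ r (ρ a₂ v) with he₄
  have hz₂ : ρ (r * r) e₂ = e₁ + e₂ := by
    rw [he₂, ← mulap, hR.za₂, mulap, mulap, hzv, ha₂₂]
  have hzr : ∀ m : M, ρ (r * r) (ρ r m) = ρ r (ρ (r * r) m) := by
    intro m
    rw [← mulap, ← mulap]
    congr 2
    group
  -- the formulas
  have F6 : ρ a₁ e₂ = e₂ := by rw [he₂, ← mulap, hR.comm, mulap, ha₁v]
  have F11 : ρ a₁ e₃ = e₃ + e₄ := by
    rw [he₃, ← mulap, hR.h2, mulap, mulap, ha₂₂, map_add]
  have F12 : ρ a₂ e₃ = e₃ := by rw [he₃, ← mulap, hR.h1, mulap, ha₁v]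
  have F16 : ρ a₁ e₄ = e₃ := by
    have h3 : ρ a₂ (ρ a₂ (ρ a₂ v)) = v := by
      rw [← mulap, ← mulap, hR.a23, oneap]
    rw [he₄, ← mulap, hR.h2, mulap, mulap, h3]
  have F17 : ρ a₂ e₄ = e₄ := by
    rw [he₄, ← mulap, hR.h1, mulap]
    congr 1
  have F9 : ρ s e₂ = e₁ + e₂ := by
    rw [he₂, ← mulap, hR.h4, mulap, mulap, hsv, ha₂₂]
  have F14 : ρ s e₃ = e₃ := by
    rw [he₃, ← mulap, hR.sr, mulap, mulap, hsv, hzv]
  have F19 : ρ s e₄ = e₄ := by
    rw [he₄, ← mulap, hR.sr, mulap, mulap]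
    have h1 : ρ s (ρ a₂ v) = e₁ + e₂ := F9
    rw [h1, map_add, hzv, hz₂, ← add_assoc, add_self', zero_add]
  have F13 : ρ r e₃ = e₁ := by rw [he₃, ← mulap, hzv]
  have F18 : ρ r e₄ = e₁ + e₂ := by rw [he₄, ← mulap]; exact hz₂
  have F15 : ρ (r * r) e₃ = e₃ := by rw [he₃, hzr, hzv]
  have F20 : ρ (r * r) e₄ = e₃ + e₄ := by
    rw [he₄, hzr]
    have h1 : ρ (r * r) (ρ a₂ v) = e₁ + e₂ := hz₂
    rw [h1, map_add]
  -- the parametrisation
  let Ψ : T4 →ₗ[ZMod 2] M :=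
    { toFun := fun x => x.1 • e₁ + x.2.1 • e₂ + x.2.2.1 • e₃ + x.2.2.2 • e₄
      map_add' := by
        rintro ⟨a, b, c, d⟩ ⟨a', b', c', d'⟩
        show (a + a') • e₁ + (b + b') • e₂ + (c + c') • e₃ + (d + d') • e₄ =
          (a • e₁ + b • e₂ + c • e₃ + d • e₄) + (a' • e₁ + b' • e₂ + c' • e₃ + d' • e₄)
        module
      map_smul' := by
        rintro k ⟨a, b, c, d⟩
        show (k * a) • e₁ + (k * b) • e₂ + (k * c) • e₃ + (k * d) • e₄ =
          k • (a • e₁ + b • e₂ + c • e₃ + d • e₄)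
        module }
  have hΨ : ∀ a b c d : ZMod 2, Ψ (a, b, c, d) = a • e₁ + b • e₂ + c • e₃ + d • e₄ :=
    fun _ _ _ _ => rfl
  have Ga₁ : ∀ a b c d : ZMod 2, ρ a₁ (Ψ (a, b, c, d)) = Ψ (a, b, c + d, c) := by
    intro a b c d
    rw [hΨ, hΨ]
    simp only [map_add, map_smul, ha₁v, F6, F11, F16]
    module
  have Ga₂ : ∀ a b c d : ZMod 2, ρ a₂ (Ψ (a, b, c, d)) = Ψ (b, a + b, c, d) := by
    intro a b c d
    rw [hΨ, hΨ]
    have h1 : ρ a₂ e₂ = e₁ + e₂ := ha₂₂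
    simp only [map_add, map_smul, F12, F17, h1]
    have h2 : ρ a₂ e₁ = e₂ := rfl
    rw [h2]
    module
  have Gr : ∀ a b c d : ZMod 2, ρ r (Ψ (a, b, c, d)) = Ψ (c + d, d, a, b) := by
    intro a b c d
    rw [hΨ, hΨ]
    have h1 : ρ r e₁ = e₃ := rfl
    have h2 : ρ r e₂ = e₄ := rfl
    simp only [map_add, map_smul, F13, F18, h1, h2]
    module
  have Gs : ∀ a b c d : ZMod 2, ρ s (Ψ (a, b, c, d)) = Ψ (a + b, b, c, d) := by
    intro a b c d
    rw [hΨ, hΨ]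
    have h1 : ρ s e₁ = e₁ := hsv
    simp only [map_add, map_smul, F9, F14, F19, h1]
    module
  have Gz : ∀ a b c d : ZMod 2, ρ (r * r) (Ψ (a, b, c, d)) = Ψ (a + b, b, c + d, d) := by
    intro a b c d
    rw [hΨ, hΨ]
    have h1 : ρ (r * r) e₁ = e₁ := hzv
    simp only [map_add, map_smul, hz₂, F15, F20, h1]
    module
  have Grs : ∀ a b c d : ZMod 2, ρ (r * s) (Ψ (a, b, c, d)) = Ψ (c + d, d, a + b, b) := by
    intro a b c d
    rw [mulap, Gs, Gr]
  -- injectivity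
  have hind : ∀ a b : ZMod 2, a • e₁ + b • e₂ = 0 → a = 0 ∧ b = 0 := by
    intro a b h
    have two : ∀ x : ZMod 2, x = 0 ∨ x = 1 := by decide
    rcases two a with rfl | rfl <;> rcases two b with rfl | rfl
    · exact ⟨rfl, rfl⟩
    · exfalso
      simp only [zero_smul, one_smul, zero_add] at h
      exact hv (inj_ρ ρ a₂ h)
    · exfalso
      simp only [zero_smul, one_smul, add_zero] at h
      exact hv h
    · exfalso
      simp only [one_smul] at h
      exact ha₂v (eq_of_add_eq_zero' h).symm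
  have hinj : Function.Injective Ψ := by
    rw [← LinearMap.ker_eq_bot, LinearMap.ker_eq_bot']
    rintro ⟨a, b, c, d⟩ h
    rw [hΨ] at h
    have h1 : a • e₁ + b • e₂ + (c • e₃ + d • e₄) = 0 := by rw [← add_assoc]; exact h
    have h2 := eq_of_add_eq_zero' h1
    have h3 : a • e₁ + b • e₂ = 0 := by
      apply hC
      · simp only [map_add, map_smul, ha₁v, F6]
      · rw [h2]
        simp only [map_add, map_smul, F12, F17]
    have h4 : ρ r (c • e₁ + d • e₂) = 0 := by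
      rw [map_add, map_smul, map_smul]
      have : c • e₃ + d • e₄ = 0 := by rw [← h2]; exact h3
      exact this
    obtain ⟨rfl, rfl⟩ := hind a b h3
    obtain ⟨rfl, rfl⟩ := hind c d (inj_ρ ρ r h4)
    rfl
  have hsurj : Function.Surjective Ψ := by
    have hN : LinearMap.range Ψ = ⊥ ∨ LinearMap.range Ψ = ⊤ := by
      apply hirr
      · rintro _ ⟨⟨a, b, c, d⟩, rfl⟩
        exact ⟨_, (Ga₁ a b c d).symm⟩
      · rintro _ ⟨⟨a, b, c, d⟩, rfl⟩
        exact ⟨_, (Ga₂ a b c d).symm⟩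
      · rintro _ ⟨⟨a, b, c, d⟩, rfl⟩
        exact ⟨_, (Gr a b c d).symm⟩
      · rintro _ ⟨⟨a, b, c, d⟩, rfl⟩
        exact ⟨_, (Gs a b c d).symm⟩
    rcases hN with h | h
    · exfalso
      have h1 : Ψ (1, 0, 0, 0) ∈ LinearMap.range Ψ := ⟨_, rfl⟩
      rw [h, Submodule.mem_bot, hΨ] at h1
      simp only [one_smul, zero_smul, add_zero] at h1
      exact hv h1
    · exact LinearMap.range_eq_top.mp h
  let E : T4 ≃ M := Equiv.ofBijective Ψ ⟨hinj, hsurj⟩
  have hE : ∀ x, E x = Ψ x := fun _ => rfl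
  refine ⟨?_, ?_, ?_⟩
  · rw [← Nat.card_congr E]
    simp [T4]
  · have e1 : {m : M // ρ (r * r) m = m ∧ ρ s m = m} ≃ {x : T4 // x.2.1 = 0 ∧ x.2.2.2 = 0} := by
      refine (E.subtypeEquiv (fun x => ?_)).symm
      obtain ⟨a, b, c, d⟩ := x
      rw [hE, Gz, Gs]
      constructor
      · rintro ⟨h1, h2⟩
        have h1' : b = 0 := h1
        have h2' : d = 0 := h2
        subst h1' h2'
        constructor <;> simp
      · rintro ⟨h1, -⟩
        have h3 := hinj h1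
        simp only [Prod.mk.injEq] at h3
        show b = 0 ∧ d = 0
        exact ⟨by simpa using h3.1, by simpa using h3.2.2.1⟩
    rw [Nat.card_congr e1, Nat.card_eq_fintype_card]
    rfl
  · have e1 : {m : M // ρ (r * r) m = m ∧ ρ (r * s) m = m} ≃
        {x : T4 // x.2.1 = 0 ∧ x.2.2.2 = 0 ∧ x.1 = x.2.2.1} := by
      refine (E.subtypeEquiv (fun x => ?_)).symm
      obtain ⟨a, b, c, d⟩ := x
      rw [hE, Gz, Grs]
      constructor
      · rintro ⟨h1, h2, h3⟩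
        have h1' : b = 0 := h1
        have h2' : d = 0 := h2
        have h3' : a = c := h3
        subst h1' h2' h3'
        constructor <;> simp
      · rintro ⟨h1, h2⟩
        have h3 := hinj h1
        have h4 := hinj h2
        simp only [Prod.mk.injEq] at h3 h4
        have hb : b = 0 := by simpa using h3.1
        have hd : d = 0 := by simpa using h3.2.2.1
        subst hb hd
        show (0 : ZMod 2) = 0 ∧ (0 : ZMod 2) = 0 ∧ a = c
        refine ⟨rfl, rfl, ?_⟩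
        have := h4.1
        simpa using this.symm
    rw [Nat.card_congr e1, Nat.card_eq_fintype_card]
    rfl

end Core

end Cfsg.Agent.Lib.S4407
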